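import Cfsg.Agent.H143.Pw.Lin
import Cfsg.Agent.H162.GaussPSL

/-!
The corner in `SL_5` and `SL_6` (S2465, exceptional rows over the fields of two and three elements).
-/

set_option autoImplicit false

namespace Cfsg.Agent.H143.Pw.Cor

open Module Matrix
open Cfsg.Agent.H143.Pw.Lin
open Cfsg.Agent.H162.GaussPSL (eqf eqf_inl embf embf_apply)

universe u

variable {F : Type u} [Field F]

local notation "SL" => Matrix.SpecialLinearGroup

/-! ### The block decomposition -/

/-- the last `n` coordinates -/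
def sh (n : ℕ) : Fin n ↪ Fin (n + 2) where
  toFun i := i.succ.succ
  inj' a b h := by simpa using h

theorem sh_compl {n : ℕ} {c : Fin (n + 2)} (hc : ∀ k, sh n k ≠ c) : c = 0 ∨ c = 1 := by
  by_contra hcon
  push Not at hcon
  obtain ⟨j, rfl⟩ := Fin.exists_succ_eq.2 hcon.1
  have hj : j ≠ 0 := by
    rintro rfl
    exact hcon.2 rfl
  obtain ⟨k, rfl⟩ := Fin.exists_succ_eq.2 hj
  exact hc k rfl

/-- the first two basis vectors are fixed modulo the span of the others -/
def Good {n : ℕ} (A : Matrix (Fin (n + 2)) (Fin (n + 2)) F) : Prop :=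
  A 0 0 = 1 ∧ A 0 1 = 0 ∧ A 1 0 = 0 ∧ A 1 1 = 1

/-- the lower block -/
def lowB (n : ℕ) (F : Type u) [Field F] : Subgroup (SL (Fin (n + 2)) F) :=
  Subgroup.closure {x | ∃ (a : Fin n) (c : Fin (n + 2)) (h : sh n a ≠ c) (t : F), (c = 0 ∨ c = 1) ∧
    x = Matrix.SpecialLinearGroup.transvection h t}

/-- the upper block -/
def upB (n : ℕ) (F : Type u) [Field F] : Subgroup (SL (Fin (n + 2)) F) :=
  Subgroup.closure {x | ∃ (a : Fin n) (c : Fin (n + 2)) (h : c ≠ sh n a) (t : F), (c = 0 ∨ c = 1) ∧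
    x = Matrix.SpecialLinearGroup.transvection h t}

section

variable {n : ℕ}

/-- the complement -/
abbrev Cp (n : ℕ) := {c : Fin (n + 2) // ∀ k, sh n k ≠ c}

theorem det_lo (C : Matrix (Fin n) (Cp n) F) : (reindex (eqf (sh n)) (eqf (sh n)) (fromBlocks 1 C 0 1)).det = 1 := by
  rw [det_reindex_self, det_fromBlocks_zero₂₁, det_one, det_one, mul_one]

theorem det_up (B : Matrix (Cp n) (Fin n) F) : (reindex (eqf (sh n)) (eqf (sh n)) (fromBlocks 1 0 B 1)).det = 1 := by
  rw [det_reindex_self, det_fromBlocks_zero₁₂, det_one, det_one, mul_one]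

theorem lo_mem (C : Matrix (Fin n) (Cp n) F) :
    (⟨reindex (eqf (sh n)) (eqf (sh n)) (fromBlocks 1 C 0 1), det_lo C⟩ : SL (Fin (n + 2)) F) ∈ lowB n F := by
  refine Matrix.induction_on' C ?_ ?_ ?_
  · refine (congrArg (· ∈ lowB n F) ?_).mpr (one_mem (lowB n F))
    apply Subtype.ext
    change reindex (eqf (sh n)) (eqf (sh n)) (fromBlocks (1 : Matrix (Fin n) (Fin n) F) 0 0 1) = 1
    rw [fromBlocks_one]
    simp
  · intro C C' h h'
    refine (congrArg (· ∈ lowB n F) ?_).mpr (mul_mem h h')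
    apply Subtype.ext
    change reindex (eqf (sh n)) (eqf (sh n)) (fromBlocks 1 (C + C') 0 1) =
      reindex (eqf (sh n)) (eqf (sh n)) (fromBlocks 1 C 0 1) * reindex (eqf (sh n)) (eqf (sh n)) (fromBlocks 1 C' 0 1)
    rw [reindex_apply, reindex_apply, reindex_apply, submatrix_mul_equiv, fromBlocks_multiply]
    simp [add_comm]
  · intro a c t
    refine Subgroup.subset_closure ⟨a, c.1, c.2 a, t, sh_compl c.2, ?_⟩
    apply Subtype.ext
    change reindex (eqf (sh n)) (eqf (sh n)) (fromBlocks 1 (single a c t) 0 1) = 1 + single (sh n a) c.1 t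
    ext i j
    obtain ⟨x, rfl⟩ := (eqf (sh n)).surjective i
    obtain ⟨y, rfl⟩ := (eqf (sh n)).surjective j
    have h2 : (sh n a = eqf (sh n) x) ↔ x = Sum.inl a := by
      rw [← eqf_inl, EmbeddingLike.apply_eq_iff_eq, eq_comm]
    have h3 : (c.1 = eqf (sh n) y) ↔ y = Sum.inr c := by
      have : (c : Fin (n + 2)) = eqf (sh n) (Sum.inr c) := rfl
      rw [this, EmbeddingLike.apply_eq_iff_eq, eq_comm]
    simp only [reindex_apply, submatrix_apply, Equiv.symm_apply_apply, Matrix.add_apply, Matrix.one_apply, single_apply,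
      EmbeddingLike.apply_eq_iff_eq, h2, h3]
    rcases x with x | x <;> rcases y with y | y
    · simp [Matrix.one_apply]
    · simp [single_apply, eq_comm]
    · simp
    · simp [Matrix.one_apply]

theorem up_mem (B : Matrix (Cp n) (Fin n) F) :
    (⟨reindex (eqf (sh n)) (eqf (sh n)) (fromBlocks 1 0 B 1), det_up B⟩ : SL (Fin (n + 2)) F) ∈ upB n F := by
  refine Matrix.induction_on' B ?_ ?_ ?_
  · refine (congrArg (· ∈ upB n F) ?_).mpr (one_mem (upB n F))
    apply Subtype.ext
    change reindex (eqf (sh n)) (eqf (sh n)) (fromBlocks (1 : Matrix (Fin n) (Fin n) F) 0 0 1) = 1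
    rw [fromBlocks_one]
    simp
  · intro C C' h h'
    refine (congrArg (· ∈ upB n F) ?_).mpr (mul_mem h h')
    apply Subtype.ext
    change reindex (eqf (sh n)) (eqf (sh n)) (fromBlocks 1 0 (C + C') 1) =
      reindex (eqf (sh n)) (eqf (sh n)) (fromBlocks 1 0 C 1) * reindex (eqf (sh n)) (eqf (sh n)) (fromBlocks 1 0 C' 1)
    rw [reindex_apply, reindex_apply, reindex_apply, submatrix_mul_equiv, fromBlocks_multiply]
    simp [add_comm]
  · intro c a t
    refine Subgroup.subset_closure ⟨a, c.1, (c.2 a).symm, t, sh_compl c.2, ?_⟩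
    apply Subtype.ext
    change reindex (eqf (sh n)) (eqf (sh n)) (fromBlocks 1 0 (single c a t) 1) = 1 + single c.1 (sh n a) t
    ext i j
    obtain ⟨x, rfl⟩ := (eqf (sh n)).surjective i
    obtain ⟨y, rfl⟩ := (eqf (sh n)).surjective j
    have h2 : (sh n a = eqf (sh n) y) ↔ y = Sum.inl a := by
      rw [← eqf_inl, EmbeddingLike.apply_eq_iff_eq, eq_comm]
    have h3 : (c.1 = eqf (sh n) x) ↔ x = Sum.inr c := by
      have : (c : Fin (n + 2)) = eqf (sh n) (Sum.inr c) := rfl
      rw [this, EmbeddingLike.apply_eq_iff_eq, eq_comm]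
    simp only [reindex_apply, submatrix_apply, Equiv.symm_apply_apply, Matrix.add_apply, Matrix.one_apply, single_apply,
      EmbeddingLike.apply_eq_iff_eq, h2, h3]
    rcases x with x | x <;> rcases y with y | y
    · simp [Matrix.one_apply]
    · simp
    · simp [single_apply, eq_comm]
    · simp [Matrix.one_apply]

/-- **The block decomposition.** -/
theorem exists_dec {A : SL (Fin (n + 2)) F} (hA : Good A.1) :
    ∃ L ∈ lowB n F, ∃ S : SL (Fin n) F, ∃ U ∈ upB n F, A = L * embf F (sh n) S * U := by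
  set A' : Matrix (Fin n ⊕ Cp n) (Fin n ⊕ Cp n) F := A.1.submatrix (eqf (sh n)) (eqf (sh n)) with hA'
  have h22 : A'.toBlocks₂₂ = 1 := by
    ext c d
    change A.1 c.1 d.1 = _
    obtain ⟨h00, h01, h10, h11⟩ := hA
    rcases sh_compl c.2 with hc | hc <;> rcases sh_compl d.2 with hd | hd
    · rw [hc, hd, h00, (Subtype.ext (hc.trans hd.symm) : c = d), Matrix.one_apply_eq]
    · rw [hc, hd, h01, Matrix.one_apply_ne]
      rintro rfl
      rw [hc] at hd
      exact absurd hd (by simp)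
    · rw [hc, hd, h10, Matrix.one_apply_ne]
      rintro rfl
      rw [hc] at hd
      exact absurd hd (by simp)
    · rw [hc, hd, h11, (Subtype.ext (hc.trans hd.symm) : c = d), Matrix.one_apply_eq]
  have hdec : A' = fromBlocks 1 A'.toBlocks₁₂ 0 1 * fromBlocks (A'.toBlocks₁₁ - A'.toBlocks₁₂ * A'.toBlocks₂₁) 0 0 1 *
      fromBlocks 1 0 A'.toBlocks₂₁ 1 := by
    conv_lhs => rw [← fromBlocks_toBlocks A', h22]
    rw [fromBlocks_multiply, fromBlocks_multiply]
    simp
  have hAre : A.1 = reindex (eqf (sh n)) (eqf (sh n)) A' := by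
    ext i j
    simp [hA']
  have hdet : (A'.toBlocks₁₁ - A'.toBlocks₁₂ * A'.toBlocks₂₁).det = 1 := by
    have h1 : A'.det = 1 := by
      rw [hA', det_submatrix_equiv_self]
      exact A.2
    rw [hdec, det_mul, det_mul, det_fromBlocks_zero₂₁, det_fromBlocks_zero₂₁, det_fromBlocks_zero₁₂] at h1
    simpa using h1
  refine ⟨_, lo_mem A'.toBlocks₁₂, ⟨_, hdet⟩, _, up_mem A'.toBlocks₂₁, ?_⟩
  apply Subtype.ext
  change A.1 = reindex (eqf (sh n)) (eqf (sh n)) (fromBlocks 1 A'.toBlocks₁₂ 0 1) *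
    reindex (eqf (sh n)) (eqf (sh n)) (fromBlocks (A'.toBlocks₁₁ - A'.toBlocks₁₂ * A'.toBlocks₂₁) 0 0 1) *
    reindex (eqf (sh n)) (eqf (sh n)) (fromBlocks 1 0 A'.toBlocks₂₁ 1)
  rw [hAre]
  conv_lhs => rw [hdec]
  rw [reindex_apply, reindex_apply, reindex_apply, reindex_apply, submatrix_mul_equiv, submatrix_mul_equiv]

end

end Cfsg.Agent.H143.Pw.Cor
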