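import Cfsg.Agent.H143.Pw.EGrp

/-!
The corner in `E₆` (S2465): the matrices of the second block.
-/

set_option autoImplicit false
set_option linter.unusedSectionVars false

namespace Cfsg.Agent.H143.Pw.ESix

open CoxeterSystem Cfsg.Agent.ChevalleyStructure.CoxeterGeom Cfsg.Agent.Tits.Roots Cfsg.Agent.Tits.Core
  Cfsg.Agent.Nodes.Reps Cfsg.Agent.Nodes.BNOf Cfsg.Agent.Nodes.RGDLib Cfsg.Agent.Nodes.Bruhat
  Cfsg.Agent.Nodes.OppDec Cfsg.Agent.Nodes.LeviDec Cfsg.Agent.Nodes.KindChev Cfsg.Agent.Nodes.ChevCls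
  Cfsg.Agent.Nodes.StabComb
  Cfsg.Agent.OddHalf.NI.ModelChev
  Cfsg.Agent.H162.GaussDec Cfsg.Agent.H162.GaussLevi Cfsg.Agent.H162.GaussSL
  Cfsg.Agent.H162.GaussMain Cfsg.Agent.H162.GaussPQ Cfsg.Agent.H162.GaussExc
open Cfsg.Lie Cfsg.Agent.ChevalleyStructure Cfsg.Agent.ChevalleyStructure.Elts
  Cfsg.Agent.ChevalleyStructure.RootVec Cfsg.Agent.ChevalleyStructure.NPerm
  Cfsg.Agent.ChevalleyStructure.CoxeterGeomTypes Cfsg.Agent.Nodes.RGDChev Cfsg.Agent.KFacts.RgdChevCoord
open Cfsg.Agent.TitsThree.KExcRT Cfsg.Agent.AGraded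
open Cfsg.Agent.TitsThree.KExcBase (comm_nil)
open Cfsg.Agent.H162.GaussPSL (embf embf_tv)
open Cfsg.Agent.H143.Pw.Cor
open Matrix (single)

universe u

variable {K : Type u} [Field K]

local notation "SLn" => Matrix.SpecialLinearGroup
local notation "tvn" => Matrix.SpecialLinearGroup.transvection

theorem tvn_coe {n : ℕ} {i j : Fin n} (h : i ≠ j) (t : K) : (tvn h t : SLn (Fin n) K).1 = 1 + single i j t := rfl

/-- the Weyl element -/
def wl {n : ℕ} (K : Type u) [Field K] {i j : Fin n} (h : i ≠ j) : SLn (Fin n) K := tvn h 1 * tvn h.symm (-1) * tvn h 1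

theorem wl_coe {n : ℕ} {i j : Fin n} (h : i ≠ j) :
    (wl K h).1 = 1 + single i j (1 : K) - single j i 1 - single i i 1 - single j j 1 := by
  change (1 + single i j (1 : K)) * (1 + single j i (-1)) * (1 + single i j 1) = _
  have e0 : single j i (-1 : K) = - single j i 1 := by
    ext a b; simp [Matrix.single_apply, Matrix.neg_apply]; split_ifs <;> simp
  rw [e0]
  have e1 : single i j (1 : K) * single j i 1 = single i i 1 := by rw [Matrix.single_mul_single_same, mul_one]
  have e2 : single i j (1 : K) * single i j 1 = 0 := Matrix.single_mul_single_of_ne _ _ _ _ h.symm _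
  have e3 : single j i (1 : K) * single i j 1 = single j j 1 := by rw [Matrix.single_mul_single_same, mul_one]
  have e4 : single i i (1 : K) * single i j 1 = single i j 1 := by rw [Matrix.single_mul_single_same, mul_one]
  calc (1 + single i j (1 : K)) * (1 + -single j i 1) * (1 + single i j 1)
      = 1 + single i j 1 - single j i 1 - single i j 1 * single j i 1 + single i j 1 + single i j 1 * single i j 1
        - single j i 1 * single i j 1 - (single i j 1 * single j i 1) * single i j 1 := by noncomm_ring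
    _ = _ := by rw [e1, e2, e3, e4]; abel

theorem wl_sq {n : ℕ} {i j : Fin n} (h : i ≠ j) :
    (wl K h * wl K h).1 = 1 - (single i i (1 : K) + single i i 1) - (single j j 1 + single j j 1) := by
  change (wl K h).1 * (wl K h).1 = _
  rw [wl_coe]
  have e1 : single i j (1 : K) * single j i 1 = single i i 1 := by rw [Matrix.single_mul_single_same, mul_one]
  have e2 : single i j (1 : K) * single i j 1 = 0 := Matrix.single_mul_single_of_ne _ _ _ _ h.symm _
  have e3 : single j i (1 : K) * single i j 1 = single j j 1 := by rw [Matrix.single_mul_single_same, mul_one]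
  have e4 : single i i (1 : K) * single i j 1 = single i j 1 := by rw [Matrix.single_mul_single_same, mul_one]
  have e5 : single j i (1 : K) * single j i 1 = 0 := Matrix.single_mul_single_of_ne _ _ _ _ h _
  have e6 : single i j (1 : K) * single i i 1 = 0 := Matrix.single_mul_single_of_ne _ _ _ _ h.symm _
  have e7 : single i j (1 : K) * single j j 1 = single i j 1 := by rw [Matrix.single_mul_single_same, mul_one]
  have e8 : single j i (1 : K) * single i i 1 = single j i 1 := by rw [Matrix.single_mul_single_same, mul_one]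
  have e9 : single j i (1 : K) * single j j 1 = 0 := Matrix.single_mul_single_of_ne _ _ _ _ h _
  have f1 : single i i (1 : K) * single j i 1 = 0 := Matrix.single_mul_single_of_ne _ _ _ _ h _
  have f2 : single i i (1 : K) * single i i 1 = single i i 1 := by rw [Matrix.single_mul_single_same, mul_one]
  have f3 : single i i (1 : K) * single j j 1 = 0 := Matrix.single_mul_single_of_ne _ _ _ _ h _
  have f4 : single j j (1 : K) * single i j 1 = 0 := Matrix.single_mul_single_of_ne _ _ _ _ h.symm _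
  have f5 : single j j (1 : K) * single j i 1 = single j i 1 := by rw [Matrix.single_mul_single_same, mul_one]
  have f6 : single j j (1 : K) * single i i 1 = 0 := Matrix.single_mul_single_of_ne _ _ _ _ h.symm _
  have f7 : single j j (1 : K) * single j j 1 = single j j 1 := by rw [Matrix.single_mul_single_same, mul_one]
  simp only [mul_add, add_mul, mul_sub, sub_mul, mul_one, one_mul, e1, e2, e3, e4, e5, e6, e7, e8, e9, f1, f2, f3, f4,
    f5, f6, f7]
  abel

/-! ### The elements -/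

/-- the element of the first block -/
def T6 (K : Type u) [Field K] : SLn (Fin 6) K :=
  (wl K (show (0 : Fin 6) ≠ 1 by decide) * wl K (show (0 : Fin 6) ≠ 1 by decide)) *
  (wl K (show (2 : Fin 6) ≠ 3 by decide) * wl K (show (2 : Fin 6) ≠ 3 by decide)) *
  tvn (show (0 : Fin 6) ≠ 1 by decide) 1

/-- the element of the second block -/
def D5 (K : Type u) [Field K] : SLn (Fin 5) K :=
  (wl K (show (0 : Fin 5) ≠ 1 by decide) * wl K (show (0 : Fin 5) ≠ 1 by decide)) *
  (wl K (show (2 : Fin 5) ≠ 3 by decide) * wl K (show (2 : Fin 5) ≠ 3 by decide)) *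
  tvn (show (0 : Fin 5) ≠ 1 by decide) 1

/-- the central factor -/
def H6 (K : Type u) [Field K] : SLn (Fin 6) K :=
  wl K (show (4 : Fin 6) ≠ 5 by decide) * wl K (show (4 : Fin 6) ≠ 5 by decide)

theorem phi_T6 {φ : SLn (Fin 6) K →* ↥(chevE6.group K)} (hφ : IsBlk a5 φ) {ψ : SLn (Fin 5) K →* ↥(chevE6.group K)}
    (hψ : IsBlk a4 ψ) : φ (T6 K) = ψ (D5 K) := by
  unfold T6 D5 wl
  simp only [map_mul, hφ _ _ _ _, hψ _ _ _ _]
  rfl

theorem eq_T6_H6 {A : SLn (Fin 6) K} (hA : A.1 = M0 K) : A = T6 K * H6 K := by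
  apply Subtype.ext
  have h1 : (T6 K * H6 K).1 = ((1 - (single 0 0 (1 : K) + single 0 0 1) - (single 1 1 1 + single 1 1 1)) *
      (1 - (single 2 2 (1 : K) + single 2 2 1) - (single 3 3 1 + single 3 3 1)) * (1 + single 0 1 1)) *
      (1 - (single 4 4 (1 : K) + single 4 4 1) - (single 5 5 1 + single 5 5 1)) := by
    rw [← wl_sq (show (0 : Fin 6) ≠ 1 by decide), ← wl_sq (show (2 : Fin 6) ≠ 3 by decide),
      ← wl_sq (show (4 : Fin 6) ≠ 5 by decide)]
    rfl
  rw [hA, h1]
  have d1 : (1 - (single 0 0 (1 : K) + single 0 0 1) - (single 1 1 1 + single 1 1 1) : Matrix (Fin 6) (Fin 6) K) =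
      Matrix.diagonal ![-1, -1, 1, 1, 1, 1] := by
    ext i j
    fin_cases i <;> fin_cases j <;> simp +decide [Matrix.single_apply, Matrix.diagonal, Matrix.one_apply] <;> norm_num
  have d2 : (1 - (single 2 2 (1 : K) + single 2 2 1) - (single 3 3 1 + single 3 3 1) : Matrix (Fin 6) (Fin 6) K) =
      Matrix.diagonal ![1, 1, -1, -1, 1, 1] := by
    ext i j
    fin_cases i <;> fin_cases j <;> simp +decide [Matrix.single_apply, Matrix.diagonal, Matrix.one_apply] <;> norm_num
  have d3 : (1 - (single 4 4 (1 : K) + single 4 4 1) - (single 5 5 1 + single 5 5 1) : Matrix (Fin 6) (Fin 6) K) =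
      Matrix.diagonal ![1, 1, 1, 1, -1, -1] := by
    ext i j
    fin_cases i <;> fin_cases j <;> simp +decide [Matrix.single_apply, Matrix.diagonal, Matrix.one_apply] <;> norm_num
  rw [d1, d2, d3, Matrix.diagonal_mul_diagonal]
  unfold M0
  ext i j
  rw [Matrix.mul_diagonal, Matrix.diagonal_mul]
  fin_cases i <;> fin_cases j <;> simp [Matrix.one_apply]

/-- the last row -/
def ar (a c d : K) : SLn (Fin 5) K :=
  ⟨!![1, 0, 0, 0, 0; 0, 1, 0, 0, 0; 0, 0, 1, 0, 0; 0, 0, 0, 1, 0; a, 0, c, d, 1], by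
    rw [Matrix.det_of_isLowerTriangular]
    · simp [Fin.prod_univ_five]
    · intro i j hij
      fin_cases i <;> fin_cases j <;> first | rfl | exact absurd hij (by decide)⟩

/-- the last column -/
def bc (a b c d : K) : SLn (Fin 5) K :=
  ⟨!![1, 0, 0, 0, a; 0, 1, 0, 0, b; 0, 0, 1, 0, c; 0, 0, 0, 1, d; 0, 0, 0, 0, 1], by
    rw [Matrix.det_of_isUpperTriangular]
    · simp [Fin.prod_univ_five]
    · intro i j hij
      fin_cases i <;> fin_cases j <;> first | rfl | exact absurd hij (by decide)⟩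

theorem ar_mul (a c d a' c' d' : K) : ar a c d * ar a' c' d' = ar (a + a') (c + c') (d + d') := by
  apply Subtype.ext
  change !![1, 0, 0, 0, 0; 0, 1, 0, 0, 0; 0, 0, 1, 0, 0; 0, 0, 0, 1, 0; a, 0, c, d, 1] *
    !![1, 0, 0, 0, 0; 0, 1, 0, 0, 0; 0, 0, 1, 0, 0; 0, 0, 0, 1, 0; a', 0, c', d', 1] =
    !![1, 0, 0, 0, 0; 0, 1, 0, 0, 0; 0, 0, 1, 0, 0; 0, 0, 0, 1, 0; a + a', 0, c + c', d + d', 1]
  ext i j
  fin_cases i <;> fin_cases j <;> simp [Matrix.mul_apply, Fin.sum_univ_five, add_comm]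

theorem bc_mul (a b c d a' b' c' d' : K) : bc a b c d * bc a' b' c' d' = bc (a + a') (b + b') (c + c') (d + d') := by
  apply Subtype.ext
  change !![1, 0, 0, 0, a; 0, 1, 0, 0, b; 0, 0, 1, 0, c; 0, 0, 0, 1, d; 0, 0, 0, 0, 1] *
    !![1, 0, 0, 0, a'; 0, 1, 0, 0, b'; 0, 0, 1, 0, c'; 0, 0, 0, 1, d'; 0, 0, 0, 0, 1] =
    !![1, 0, 0, 0, a + a'; 0, 1, 0, 0, b + b'; 0, 0, 1, 0, c + c'; 0, 0, 0, 1, d + d'; 0, 0, 0, 0, 1]
  ext i j
  fin_cases i <;> fin_cases j <;> simp [Matrix.mul_apply, Fin.sum_univ_five, add_comm]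

theorem ar_zero : ar (0 : K) 0 0 = 1 := by
  apply Subtype.ext
  ext i j
  fin_cases i <;> fin_cases j <;> simp [ar]

theorem bc_zero : bc (0 : K) 0 0 0 = 1 := by
  apply Subtype.ext
  ext i j
  fin_cases i <;> fin_cases j <;> simp [bc]

theorem ar_t0 (h : (4 : Fin 5) ≠ 0) (c : K) : tvn h c = ar c 0 0 := by
  apply Subtype.ext
  ext i j
  fin_cases i <;> fin_cases j <;> simp [ar, Matrix.SpecialLinearGroup.transvection, Matrix.transvection]

theorem ar_t2 (h : (4 : Fin 5) ≠ 2) (c : K) : tvn h c = ar 0 c 0 := by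
  apply Subtype.ext
  ext i j
  fin_cases i <;> fin_cases j <;> simp [ar, Matrix.SpecialLinearGroup.transvection, Matrix.transvection]

theorem ar_t3 (h : (4 : Fin 5) ≠ 3) (c : K) : tvn h c = ar 0 0 c := by
  apply Subtype.ext
  ext i j
  fin_cases i <;> fin_cases j <;> simp [ar, Matrix.SpecialLinearGroup.transvection, Matrix.transvection]

theorem bc_t0 (h : (0 : Fin 5) ≠ 4) (c : K) : tvn h c = bc c 0 0 0 := by
  apply Subtype.ext
  ext i j
  fin_cases i <;> fin_cases j <;> simp [bc, Matrix.SpecialLinearGroup.transvection, Matrix.transvection]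

theorem bc_t1 (h : (1 : Fin 5) ≠ 4) (c : K) : tvn h c = bc 0 c 0 0 := by
  apply Subtype.ext
  ext i j
  fin_cases i <;> fin_cases j <;> simp [bc, Matrix.SpecialLinearGroup.transvection, Matrix.transvection]

theorem bc_t2 (h : (2 : Fin 5) ≠ 4) (c : K) : tvn h c = bc 0 0 c 0 := by
  apply Subtype.ext
  ext i j
  fin_cases i <;> fin_cases j <;> simp [bc, Matrix.SpecialLinearGroup.transvection, Matrix.transvection]

theorem bc_t3 (h : (3 : Fin 5) ≠ 4) (c : K) : tvn h c = bc 0 0 0 c := by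
  apply Subtype.ext
  ext i j
  fin_cases i <;> fin_cases j <;> simp [bc, Matrix.SpecialLinearGroup.transvection, Matrix.transvection]

theorem MK_eq (a c d b0 b1 b2 b3 : K) : (ar a c d * D5 K * bc b0 b1 b2 b3).1 = MK a c d b0 b1 b2 b3 := by
  have h1 : (D5 K).1 = (1 - (single 0 0 (1 : K) + single 0 0 1) - (single 1 1 1 + single 1 1 1)) *
      (1 - (single 2 2 (1 : K) + single 2 2 1) - (single 3 3 1 + single 3 3 1)) * (1 + single 0 1 1) := by
    rw [← wl_sq (show (0 : Fin 5) ≠ 1 by decide), ← wl_sq (show (2 : Fin 5) ≠ 3 by decide)]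
    rfl
  have d1 : (1 - (single 0 0 (1 : K) + single 0 0 1) - (single 1 1 1 + single 1 1 1) : Matrix (Fin 5) (Fin 5) K) =
      Matrix.diagonal ![-1, -1, 1, 1, 1] := by
    ext i j
    fin_cases i <;> fin_cases j <;> simp +decide [Matrix.single_apply, Matrix.diagonal, Matrix.one_apply] <;> norm_num
  have d2 : (1 - (single 2 2 (1 : K) + single 2 2 1) - (single 3 3 1 + single 3 3 1) : Matrix (Fin 5) (Fin 5) K) =
      Matrix.diagonal ![1, 1, -1, -1, 1] := by
    ext i j
    fin_cases i <;> fin_cases j <;> simp +decide [Matrix.single_apply, Matrix.diagonal, Matrix.one_apply] <;> norm_num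
  have h2 : (D5 K).1 = !![-1, -1, 0, 0, 0; 0, -1, 0, 0, 0; 0, 0, -1, 0, 0; 0, 0, 0, -1, 0; 0, 0, 0, 0, 1] := by
    rw [h1, d1, d2, Matrix.diagonal_mul_diagonal]
    ext i j
    rw [Matrix.diagonal_mul]
    fin_cases i <;> fin_cases j <;> simp [Matrix.one_apply]
  change (ar a c d).1 * (D5 K).1 * (bc b0 b1 b2 b3).1 = _
  rw [h2]
  change !![1, 0, 0, 0, 0; 0, 1, 0, 0, 0; 0, 0, 1, 0, 0; 0, 0, 0, 1, 0; a, 0, c, d, 1] *
    !![-1, -1, 0, 0, 0; 0, -1, 0, 0, 0; 0, 0, -1, 0, 0; 0, 0, 0, -1, 0; 0, 0, 0, 0, 1] *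
    !![1, 0, 0, 0, b0; 0, 1, 0, 0, b1; 0, 0, 1, 0, b2; 0, 0, 0, 1, b3; 0, 0, 0, 0, 1] = _
  unfold MK
  ext i j
  fin_cases i <;> fin_cases j <;> simp [Matrix.mul_apply, Fin.sum_univ_five] <;> ring

end Cfsg.Agent.H143.Pw.ESix
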